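import Cfsg.Agent.Lib.OO.PF2
import Cfsg.Agent.Lib.Coprime.PiClosed
import Cfsg.Agent.Lib.Coprime.Wielandt

/-!
# A `π`-homogeneous `D_π`-group has a normal `π`-complement (Arad, Ferguson)

The centralizer of an element of a Hall `π`-subgroup `H` is transitive on the conjugates of `H`
containing it; this gives the Dade hypothesis for `H^#`, and the Dade isometry produces the
normal complement exactly as in Frobenius' theorem.
-/

set_option autoImplicit false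
set_option linter.unusedSectionVars false

namespace Cfsg.Agent.OO

open Subgroup Cfsg.Agent.Coprime
open scoped Pointwise

universe u

variable {G : Type u} [Group G] [Finite G] {π : Set ℕ} {H D : Subgroup G}

/-- The Dade hypothesis for `H^#`, `H` a `π`-group into which every `π`-element is conjugate,
gives a normal `π`-complement. -/
theorem piElts_subgroup_of_dade (hH : PiGrp π H) (hD : DadeHyp ⊤ H (sharp H))
    (hcov : ∀ x : G, PiElt π x → ∃ g : G, g * x * g⁻¹ ∈ H) :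
    ∃ K : Subgroup G, ∀ x, x ∈ K ↔ PiElt πᶜ x := by
  have key : ∀ θ, IsIrr H θ → ∃ χ, IsIrr ⊤ χ ∧ (∀ x, x ∉ DadeSupp ⊤ H (sharp H) → χ x = θ 1) ∧
      ∀ a ∈ sharp H, χ a = θ a := by
    intro θ hθ
    obtain ⟨n, hn, e⟩ := hθ.exists_one
    set α := θ - n • cf1 H with hα
    have hαZ : α ∈ ZIrrOn H (sharp H) := by
      rw [mem_ZIrrOn_sharp]
      refine ⟨sub_mem (irr_vchar hθ) (nsmul_mem (cf1_vchar H) n), ?_⟩
      simp [hα, e, cf1_one]
    have hαC : α ∈ CFon H (sharp H) := by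
      rw [mem_ZIrrOn_sharp] at hαZ
      exact mem_CFon_sharp.2 ⟨vchar_mem_CF hαZ.1, hαZ.2⟩
    have hout : ∀ x, x ∉ DadeSupp ⊤ H (sharp H) →
        (Dade ⊤ H (sharp H) α + n • cf1 ⊤ : G → ℂ) x = θ 1 := by
      intro x hx
      simp [mem_suppOn.1 (Dade_suppOn ⊤ H (sharp H) α) x hx, cf1E (mem_top x), e]
    refine ⟨Dade ⊤ H (sharp H) α + n • cf1 ⊤, ?_, hout, fun a ha => ?_⟩
    · refine vchar_isIrr (add_mem (Dade_vchar hD hαZ) (nsmul_mem (cf1_vchar _) n)) ?_ ?_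
      · rw [cfnorm_eq_one_iff, cfdotDl, cfdotDr, cfdotDr, cfdotMnr, cfdotMnl, cfdotMnl, cfdotMnr,
          Dade_isometry hD hαC hαC, cfdotC (cf1 ⊤), Dade_cf1 hD hαC, cfdot_cf1, hα, cfdotBl, cfdotBr,
          cfdotBr, cfdotBl, cfdotMnr, cfdotMnl, cfdotMnl, cfdotMnr, cfdotMnl, cfdot_cf1,
          cfdot_irr_self hθ]
        by_cases h1 : θ = cf1 H
        · have : (n : ℂ) = 1 := by rw [← e, h1, cf1_one]
          rw [h1, cfdot_cf1, this]; simp
        · rw [cfdot_symm0 (hθ.cfdot_cf1 h1), hθ.cfdot_cf1 h1]; simp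
      · rw [hout 1 (not_support_Dade_1 hD)]
        exact (irr1_gt0 hθ).le
    · have := Dade_id hD (CFon_le_CF _ _ hαC) ha
      rw [Pi.add_apply, this]
      simp [hα, cf1E (mem_top a), cf1E ha.1]
  choose! χ h1 h2 h3 using key
  refine ⟨⨅ θ : {θ // IsIrr H θ}, cfker ⊤ (χ θ), fun x => ⟨fun hx => ?_, fun hx => ?_⟩⟩
  · rw [← constt_eq_one_iff]
    by_contra hne
    obtain ⟨g, hg⟩ := hcov _ (piElt_constt π x)
    have hne' : g * constt π x * g⁻¹ ≠ 1 := by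
      intro h
      exact hne (by simpa using (conj_eq_one_iff.1 h))
    obtain ⟨θ, hθ, hk⟩ := exists_irr_not_mem_cfker hg hne'
    refine hk ((cfkerEchar hθ.isChar).2 ⟨hg, ?_⟩)
    have h4 : g * constt π x * g⁻¹ ∈ cfker ⊤ (χ θ) :=
      (cfker_normal (h1 θ hθ).mem_CF).conj_mem (mem_top g)
        (constt_mem π (mem_iInf.1 hx ⟨θ, hθ⟩))
    rw [← h3 θ hθ _ ⟨hg, hne'⟩, cfker1 h4, h2 θ hθ 1 (not_support_Dade_1 hD)]
  · refine mem_iInf.2 fun θ => (cfkerEchar (h1 θ θ.2).isChar).2 ⟨mem_top x, ?_⟩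
    rw [h2 θ θ.2 1 (not_support_Dade_1 hD)]
    refine h2 θ θ.2 x fun hs => ?_
    obtain ⟨a, ha, y, hy, g, -, rfl⟩ := mem_DadeSupp.1 hs
    have hy' : y * a⁻¹ ∈ DadeSig ⊤ H a := hy
    have hc : Commute (y * a⁻¹) a := mem_cent1.1 (Dade_signalizer_cent _ _ _ hy')
    have hco : (orderOf (y * a⁻¹)).Coprime (orderOf a) :=
      (Dade_signalizer_coprime_orderOf hD ha ha).coprime_dvd_left (orderOf_dvd_card hy')
    have ho := hc.orderOf_mul_eq_mul_orderOf_of_coprime hco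
    rw [inv_mul_cancel_right] at ho
    refine ha.2 ((hH.piElt ha.1).eq_one ((piElt_conj.1 hx).of_dvd ?_))
    exact ho ▸ Dvd.intro_left _ rfl

/-- `H` is a `π`-subgroup containing a conjugate of every `π`-subgroup, and `π'`-elements
normalizing a `π`-subgroup centralize it. -/
structure PiHyp (π : Set ℕ) (H : Subgroup G) : Prop where
  pi : PiGrp π H
  cov : ∀ U : Subgroup G, PiGrp π U → ∃ g : G, U ≤ g •ᶜ H
  hom : ∀ U : Subgroup G, PiGrp π U → ∀ x ∈ 𝐍(U), PiElt πᶜ x → x ∈ 𝐂(U)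

theorem hall_of_cov {C : Subgroup G} (hle : H ≤ C) (hπ : PiGrp π H)
    (h : ∀ U ≤ C, PiGrp π U → ∃ g ∈ C, U ≤ g •ᶜ H) : Hall π H C := by
  refine IsPiHallOf.of_pi hle hπ fun q hq hd hqπ => ?_
  have := Fact.mk hq
  obtain ⟨Q, hQ⟩ := exists_syl q C
  obtain ⟨g, hg, h1⟩ := h Q hQ.le (piGrp_of_isPGroup hQ.isPGroup hqπ)
  have h2 := hQ.conj_of_mem (inv_mem hg)
  exact h2.not_dvd (hd.trans (relIndex_dvd_of_le_left _ (le_conj_iff_inv_conj_le.1 h1)))

namespace PiHyp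

theorem hall (h : PiHyp π H) : Hall π H ⊤ :=
  hall_of_cov le_top h.pi fun U _ hU => (h.cov U hU).imp fun g hg => ⟨mem_top g, hg⟩

theorem conj (h : PiHyp π H) (g : G) : PiHyp π (g •ᶜ H) :=
  ⟨h.pi.conj g, fun U hU => by
    obtain ⟨x, hx⟩ := h.cov U hU
    exact ⟨x * g⁻¹, by rwa [conj_conj, inv_mul_cancel_right]⟩, h.hom⟩

/-- transitivity of the normalizer gives transitivity of the centralizer -/
theorem cent_trans_of_norm (h : PiHyp π H) (hD : D ≤ H)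
    (ht : ∀ g : G, D ≤ g •ᶜ H → ∃ n ∈ 𝐍(D), g •ᶜ H = n •ᶜ H) {g : G} (hg : D ≤ g •ᶜ H) :
    ∃ c ∈ 𝐂(D), g •ᶜ H = c •ᶜ H := by
  have hDπ := h.pi.of_le hD
  have key : 𝐍(D) ≤ 𝐂(D) ⊔ (H ⊓ 𝐍(D)) := by
    refine le_of_forall_syl fun q hq _ => ?_
    have := Fact.mk hq
    obtain ⟨R, hR⟩ := exists_syl q 𝐍(D)
    by_cases hqπ : q ∈ π
    · obtain ⟨x, hx⟩ := h.cov (R ⊔ D) ((piGrp_of_isPGroup hR.isPGroup hqπ).sup hDπ (Or.inl hR.le))
      obtain ⟨n, hn, e⟩ := ht x (le_sup_right.trans hx)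
      have h1 := hR.conj_of_mem (inv_mem hn)
      refine ⟨_, h1, le_sup_of_le_right (le_inf ?_ h1.le)⟩
      rw [← le_conj_iff_inv_conj_le, ← e]
      exact le_sup_left.trans hx
    · exact ⟨R, hR, le_sup_of_le_left fun x hx => h.hom D hDπ x (hR.le hx)
        ((piGrp_of_isPGroup (π := πᶜ) hR.isPGroup hqπ).piElt hx)⟩
  obtain ⟨n, hn, e⟩ := ht g hg
  obtain ⟨c, hc, b, hb, rfl⟩ :=
    (mem_sup_norm_left (inf_le_right.trans (norm_le_norm_cent D))).1 (key hn)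
  exact ⟨c, hc, by rw [e, ← conj_conj, conj_eq_of_mem hb.1]⟩

theorem cent_trans_pgroup {p : ℕ} [Fact p.Prime] (hp : p ∈ π) (D : Subgroup G) :
    IsPGroup p D → ∀ H : Subgroup G, PiHyp π H → D ≤ H → ∀ g : G, D ≤ g •ᶜ H →
      ∃ c ∈ 𝐂(D), g •ᶜ H = c •ᶜ H := by
  induction D using WellFoundedGT.induction with
  | ind D ih =>
  intro hDp H h hD g hg
  refine h.cent_trans_of_norm hD (fun g hg => ?_) hg
  by_cases hS : Syl p D ⊤
  · have h1 : Syl p (g⁻¹ •ᶜ D) H :=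
      (hS.conj_of_mem (mem_top g⁻¹)).mono (le_conj_iff_inv_conj_le.1 hg) le_top
    obtain ⟨x, hx, e⟩ := (hS.mono hD le_top).exists_conj' h1
    refine ⟨g * x, conj_eq_self_iff.1 ?_, ?_⟩
    · rw [← conj_conj, ← e, conj_inv_conj]
    · rw [← conj_conj, conj_eq_of_mem hx]
  -- every member is conjugate under `C(D)` to one containing a Sylow subgroup of `N(D)`
  have step : ∀ H : Subgroup G, PiHyp π H → D ≤ H →
      ∃ c ∈ 𝐂(D), ∃ S, Syl p S 𝐍(D) ∧ D < S ∧ S ≤ c •ᶜ H := by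
    intro H h hD
    obtain ⟨P, hP, hDP⟩ := exists_syl_ge hD hDp
    have hlt : D < P := hDP.lt_of_ne fun e => hS (e ▸ hP.trans_hall h.hall hp)
    have h1 := lt_inf_norm_of_nil hP.nil hlt
    have h2 : IsPGroup p ↥(P ⊓ 𝐍(D)) := hP.isPGroup.to_inf_left
    obtain ⟨S, hS', h3⟩ := exists_syl_ge inf_le_right h2
    obtain ⟨x, hx⟩ := h.cov S (piGrp_of_isPGroup hS'.isPGroup hp)
    obtain ⟨c, hc, e⟩ := ih _ h1 h2 H h (inf_le_left.trans hP.le) x (h3.trans hx)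
    exact ⟨c, cent_anti h1.le hc, S, hS', h1.trans_le h3, e ▸ hx⟩
  obtain ⟨c1, hc1, S1, hS1, -, h1⟩ := step H h hD
  obtain ⟨c2, hc2, S2, hS2, hlt, h2⟩ := step _ (h.conj g) hg
  obtain ⟨n, hn, e⟩ := hS1.exists_conj' hS2
  obtain ⟨c, hc, e'⟩ := ih S2 hlt hS2.isPGroup _ ((h.conj g).conj c2) h2
    (n * c1 * g⁻¹ * c2⁻¹) (by
      rw [conj_conj, inv_mul_cancel_right, conj_conj, inv_mul_cancel_right, ← conj_conj, e]
      exact conj_mono n h1)
  rw [conj_conj, inv_mul_cancel_right, conj_conj, inv_mul_cancel_right, conj_conj] at e'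
  refine ⟨(c * c2)⁻¹ * (n * c1), mul_mem (inv_mem (cent_le_norm D (mul_mem (cent_anti hlt.le hc)
    hc2))) (mul_mem hn (cent_le_norm D hc1)), ?_⟩
  rw [← conj_conj, e', inv_conj_conj]

theorem cov_cent (h : PiHyp π H) (hD : D ≤ H)
    (ht : ∀ g : G, D ≤ g •ᶜ H → ∃ c ∈ 𝐂(D), g •ᶜ H = c •ᶜ H) (U : Subgroup G) (hU : U ≤ 𝐂(D))
    (hπ : PiGrp π U) : ∃ g ∈ 𝐂(D), U ≤ g •ᶜ (H ⊓ 𝐂(D)) := by
  obtain ⟨x, hx⟩ := h.cov (U ⊔ D) (hπ.sup (h.pi.of_le hD) (Or.inl (le_norm_of_le_cent hU)))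
  obtain ⟨c, hc, e⟩ := ht x (le_sup_right.trans hx)
  refine ⟨c, hc, ?_⟩
  rw [conj_inf, ← e, conj_eq_of_mem hc]
  exact le_inf (le_sup_left.trans hx) hU

theorem restrict (h : PiHyp π H) {C : Subgroup G}
    (hc : ∀ U ≤ C, PiGrp π U → ∃ g ∈ C, U ≤ g •ᶜ (H ⊓ C)) : PiHyp π (H.subgroupOf C) := by
  have hi := C.subtype_injective
  refine ⟨?_, fun U hU => ?_, fun U hU x hx hxπ => ?_⟩
  · rw [piGrp_iff_forall]
    intro x hx
    have := h.pi.piElt (mem_subgroupOf.1 hx)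
    rwa [PiElt, orderOf_coe] at this
  · obtain ⟨g, hg, h1⟩ := hc _ (map_subtype_le U) (hU.map C.subtype)
    exact ⟨⟨g, hg⟩, fun y hy => mem_conj.2 (mem_conj.1 (h1 (mem_map_of_mem C.subtype hy))).1⟩
  · have := h.hom _ (hU.map C.subtype) x (map_norm_le C.subtype U (mem_map_of_mem _ hx))
      (hxπ.map C.subtype)
    exact mem_cent_iff.2 fun y hy => hi (mem_cent_iff.1 this y (mem_map_of_mem C.subtype hy))

theorem piCentralizes (h : PiHyp π H) : PiCentralizes πᶜ G :=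
  fun U hU => h.hom U (by rwa [compl_compl] at hU)

theorem quotient (h : PiHyp π H) (N : Subgroup G) [N.Normal] (hN : PiGrp π N) :
    PiHyp π (H.map (QuotientGroup.mk' N)) := by
  have hs := QuotientGroup.mk'_surjective N
  refine ⟨h.pi.map _, fun U hU => ?_, fun U hU => ?_⟩
  · obtain ⟨g, hg⟩ := h.cov (U.comap (QuotientGroup.mk' N)) (by
      rw [PiGrp, Core.card_comap_mk]; exact hN.mul hU)
    refine ⟨QuotientGroup.mk' N g, ?_⟩
    rw [← map_conj, ← map_comap_eq_self_of_surjective hs U]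
    exact map_mono hg
  · exact h.piCentralizes.quotient N (Or.inr hN.compl_compl) U hU.compl_compl

end PiHyp

theorem PiHyp.exists_normal_compl (π : Set ℕ) (G : Type u) [Group G] [Finite G] :
    ∀ H : Subgroup G, PiHyp π H →
      ∃ K : Subgroup G, K.Normal ∧ IsPiNum πᶜ (Nat.card K) ∧ IsPiNum πᶜᶜ K.index := by
  refine Core.induction_on_card (P := fun G _ _ => ∀ H : Subgroup G, PiHyp π H →
    ∃ K : Subgroup G, K.Normal ∧ IsPiNum πᶜ (Nat.card K) ∧ IsPiNum πᶜᶜ K.index) ?_ G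
  intro G _ _ ih H h
  by_cases hZ : ∃ a ∈ H, a ≠ 1 ∧ 𝐂[a] = ⊤
  · obtain ⟨a, ha, h1, hc⟩ := hZ
    have hn : (zpowers a).Normal := normalIn_top.1
      ⟨le_top, le_norm_of_le_cent (by rw [cent_zpowers, hc])⟩
    have hπ : PiGrp π (zpowers a) := h.pi.of_le (zpowers_le.2 ha)
    obtain ⟨K, hK, h2, h3⟩ := ih _ (Core.card_quotient_lt (by simpa using h1)) _
      (h.quotient (zpowers a) hπ)
    exact exists_normal_hall_of_piCentralizes (isPiSeparable_of_normal_of_quotient (zpowers a)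
      (isPiSeparable_of_isPiNum_compl hπ.compl_compl) (isPiSeparable_of_normal_hall h2 h3))
      h.piCentralizes
  push Not at hZ
  have hsub : ∀ a ∈ H, a ≠ 1 → (∀ g : G, a ∈ g •ᶜ H → ∃ c ∈ 𝐂[a], g •ᶜ H = c •ᶜ H) →
      ∃ K, IsSdprod K (H ⊓ 𝐂[a]) 𝐂[a] ∧ PiGrp πᶜ K := by
    intro a ha h1 ht
    have hc := h.cov_cent (zpowers_le.2 ha) (by simpa only [zpowers_le, cent_zpowers] using ht)
    rw [cent_zpowers] at hc
    obtain ⟨K, hK, h2, h3⟩ := ih _ (Core.card_lt_of_ne_top (hZ a ha h1)) _ (h.restrict hc)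
    have h4 : Hall πᶜ (K.map (𝐂[a]).subtype) 𝐂[a] :=
      IsPiHallOf.of_pi (map_subtype_le K) (PiGrp.map h2 _) (by rwa [relIndex_map_subtype])
    exact ⟨_, h4.sdprod' (normalIn_map_subtype K).norm
      (hall_of_cov inf_le_right (h.pi.inf_left _) hc), h4.piGrp⟩
  have htrans : ∀ a ∈ H, a ≠ 1 → ∀ g : G, a ∈ g •ᶜ H → ∃ c ∈ 𝐂[a], g •ᶜ H = c •ᶜ H := by
    intro a ha h1 g hg
    obtain ⟨p, hp, hd⟩ := Nat.exists_prime_and_dvd (mt orderOf_eq_one_iff.1 h1)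
    have := Fact.mk hp
    have hb1 : constt {p} a ≠ 1 := fun e =>
      (isPiNum_compl_singleton hp).1 (constt_eq_one_iff.1 e) hd
    have hb := constt_mem {p} ha
    have ht : ∀ g : G, constt {p} a ∈ g •ᶜ H → ∃ c ∈ 𝐂[constt {p} a], g •ᶜ H = c •ᶜ H := by
      simpa only [zpowers_le, cent_zpowers] using PiHyp.cent_trans_pgroup (h.pi.piElt ha p hp hd)
        (zpowers (constt {p} a)) (isPGroup_zpowers_iff.2 (piElt_constt _ _)) H h (zpowers_le.2 hb)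
    obtain ⟨K, hK, -⟩ := hsub _ hb hb1 ht
    obtain ⟨c, hc, e⟩ := ht g (constt_mem _ hg)
    obtain ⟨k, hk, v, hv, rfl⟩ := hK.mem_iff.1 hc
    rw [← conj_conj, conj_eq_of_mem hv.1] at e
    refine ⟨k, ?_, e⟩
    have haC : a ∈ 𝐂[constt {p} a] := cent1_le_cent1_constt _ _ (mem_cent1_self a)
    have h2 : a⁻¹ * (k⁻¹ * a * k) ∈ K ⊓ (H ⊓ 𝐂[constt {p} a]) := by
      refine mem_inf.2 ⟨?_, mem_inf.2 ⟨mul_mem (inv_mem ha) (mem_conj.1 (e ▸ hg)), mul_mem
        (inv_mem haC) (mul_mem (mul_mem (inv_mem (hK.left_le hk)) haC) (hK.left_le hk))⟩⟩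
      have := mul_mem (hK.normal.conj_mem (inv_mem haC) (inv_mem hk)) hk
      simpa only [inv_inv, mul_assoc] using this
    rw [hK.inf_eq, mem_bot] at h2
    rw [mem_cent1]
    calc k * a = k * a * (a⁻¹ * (k⁻¹ * a * k)) := by rw [h2, mul_one]
      _ = a * k := by group
  choose! K hK1 hK2 using fun a ha h1 => hsub a ha h1 (htrans a ha h1)
  have hD : DadeHyp ⊤ H (sharp H) := by
    refine ⟨fun x hx => hx.1, fun x hx a ha => ⟨mul_mem (mul_mem hx ha.1) (inv_mem hx), fun e =>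
      ha.2 (conj_eq_one_iff.1 e)⟩, le_top, fun e => e.2 rfl, fun a ha g _ hg => ?_, K,
      fun a ha => ?_, fun a ha b _ => (hK2 a ha.1 ha.2).coprime' (h.pi.inf_left _)⟩
    · obtain ⟨c, hc, e⟩ := htrans a ha.1 ha.2 g⁻¹ (mem_conj.2 (by simpa using hg.1))
      have hn : g * c ∈ 𝐍(H) := by
        rw [← conj_eq_self_iff, ← conj_conj, ← e, conj_inv_conj]
      refine ⟨constt π (g * c), h.hall.mem_of_mem_norm (mem_top _) (constt_mem π hn)
        (piElt_constt _ _), ?_⟩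
      have h1 := mem_cent_iff_conj.1 (h.hom H h.pi _ (constt_mem πᶜ hn) (piElt_constt _ _)) a ha.1
      calc g * a * g⁻¹ = g * (c * a * c⁻¹) * g⁻¹ := by rw [mem_cent1_iff_conj.1 hc]
        _ = (g * c) * a * (g * c)⁻¹ := by group
        _ = constt π (g * c) * (constt πᶜ (g * c) * a * (constt πᶜ (g * c))⁻¹) *
            (constt π (g * c))⁻¹ := by
          conv_lhs => rw [← constt_mul_constt_compl π (g * c)]
          group
        _ = _ := by rw [h1]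
    · rw [top_inf_eq]
      exact hK1 a ha.1 ha.2
  obtain ⟨L, hL⟩ := piElts_subgroup_of_dade h.pi hD fun x hx => by
    obtain ⟨g, hg⟩ := h.cov _ (piGrp_zpowers.2 hx)
    exact ⟨g⁻¹, by simpa using mem_conj.1 (hg (mem_zpowers x))⟩
  exact ⟨L, normal_hall_of_mem_iff hL⟩

end Cfsg.Agent.OO
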